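import Cfsg.Agent.H63.SpinCov

/-!
# S2491, S2492: the kernel of the spin cover (helper383)

* `ext_scalar` : an element of the exterior algebra killed by all contractions is a scalar;
* `comm_eq` : `v x - x' v = v ⌋ x` in the Clifford algebra;
* `ker_eq` : an element of `Gam Q` over the identity is `1` or `-1`.
-/

set_option autoImplicit false

namespace Cfsg.Agent.H383.QS

open QuadraticMap CliffordAlgebra Module
open Cfsg.Agent.LieClassical.OrthCore Cfsg.Agent.LieClassical.OrthTrans
open Cfsg.Agent.H63.Spin

section ext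

variable {F V : Type*} [Field F] [AddCommGroup V] [Module F V]

/-- `v ↦ v - d(v) b` -/
def prj (b : V) (d : Module.Dual F V) : V →ₗ[F] V := LinearMap.id - d.smulRight b

theorem prj_apply (b : V) (d : Module.Dual F V) (v : V) : prj b d v = v - d v • b := rfl

theorem map_prj (b : V) (d : Module.Dual F V) (x : ExteriorAlgebra F V) :
    ExteriorAlgebra.map (prj b d) x = x - ExteriorAlgebra.ι F b * contractLeft d x := by
  induction x using CliffordAlgebra.left_induction with
  | algebraMap r => rw [contractLeft_algebraMap, mul_zero, sub_zero, AlgHom.commutes]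
  | add x y hx hy =>
    rw [map_add, map_add, hx, hy, mul_add]
    abel
  | ι_mul x m hx =>
    have h1 : ExteriorAlgebra.ι F b * ExteriorAlgebra.ι F b = 0 := ExteriorAlgebra.ι_sq_zero b
    have h2 : ExteriorAlgebra.ι F b * ExteriorAlgebra.ι F m = -(ExteriorAlgebra.ι F m * ExteriorAlgebra.ι F b) :=
      eq_neg_of_add_eq_zero_left (ExteriorAlgebra.ι_add_mul_swap b m)
    rw [map_mul, hx]
    have h3 : ExteriorAlgebra.map (prj b d) (ι (0 : QuadraticForm F V) m) =
        ExteriorAlgebra.ι F m - d m • ExteriorAlgebra.ι F b := by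
      rw [show ι (0 : QuadraticForm F V) m = ExteriorAlgebra.ι F m from rfl, ExteriorAlgebra.map_apply_ι, prj_apply,
        map_sub, map_smul]
    rw [h3, contractLeft_ι_mul]
    change (ExteriorAlgebra.ι F m - d m • ExteriorAlgebra.ι F b) * (x - ExteriorAlgebra.ι F b * contractLeft d x) =
      ExteriorAlgebra.ι F m * x - ExteriorAlgebra.ι F b * (d m • x - ExteriorAlgebra.ι F m * contractLeft d x)
    rw [sub_mul, mul_sub, mul_sub, mul_sub, smul_mul_assoc, smul_mul_assoc, ← mul_assoc (ExteriorAlgebra.ι F b) _ (contractLeft d x),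
      ← mul_assoc (ExteriorAlgebra.ι F b) _ (contractLeft d x), h1, zero_mul, smul_zero, sub_zero, h2, mul_smul_comm,
      ← mul_assoc, neg_mul]
    abel

theorem ext_scalar_aux [FiniteDimensional F V] (x : ExteriorAlgebra F V) (hx : ∀ d : Module.Dual F V, contractLeft d x = 0) :
    ∀ n : ℕ, ∀ f : V →ₗ[F] V, finrank F (LinearMap.range f) = n → ExteriorAlgebra.map f x = x →
      ∃ c : F, x = algebraMap F _ c := by
  intro n
  induction n using Nat.strong_induction_on with
  | _ n ih =>
    intro f hn hf
    by_cases h0 : f = 0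
    · subst h0
      refine ⟨ExteriorAlgebra.algebraMapInv x, ?_⟩
      nth_rw 1 [← hf]
      have : (ExteriorAlgebra.map (0 : V →ₗ[F] V)) =
          (Algebra.ofId F (ExteriorAlgebra F V)).comp ExteriorAlgebra.algebraMapInv := by
        apply ExteriorAlgebra.hom_ext
        ext v
        simp [ExteriorAlgebra.algebraMapInv]
      rw [this]
      rfl
    · obtain ⟨v, hv⟩ : ∃ v, f v ≠ 0 := by
        by_contra hcon
        push Not at hcon
        exact h0 (LinearMap.ext hcon)
      obtain ⟨d, hd⟩ : ∃ d : Module.Dual F V, d (f v) ≠ 0 := by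
        by_contra hcon
        push Not at hcon
        exact hv ((Module.forall_dual_apply_eq_zero_iff F _).1 hcon)
      obtain ⟨d', hd'⟩ : ∃ d' : Module.Dual F V, d' (f v) = 1 :=
        ⟨(d (f v))⁻¹ • d, by rw [LinearMap.smul_apply, smul_eq_mul, inv_mul_cancel₀ hd]⟩
      refine ih _ ?_ ((prj (f v) d').comp f) rfl ?_
      · rw [← hn]
        apply Submodule.finrank_lt_finrank_of_lt
        refine lt_of_le_of_ne ?_ ?_
        · rintro _ ⟨w, rfl⟩
          rw [LinearMap.comp_apply, prj_apply]
          exact Submodule.sub_mem _ ⟨w, rfl⟩ (Submodule.smul_mem _ _ ⟨v, rfl⟩)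
        · intro heq
          have h1 : f v ∈ LinearMap.range ((prj (f v) d').comp f) := by rw [heq]; exact ⟨v, rfl⟩
          obtain ⟨w, hw⟩ := h1
          have h2 := congrArg d' hw
          rw [LinearMap.comp_apply, prj_apply, map_sub, map_smul, hd', smul_eq_mul, mul_one, sub_self] at h2
          exact zero_ne_one h2
      · rw [← ExteriorAlgebra.map_comp_map, AlgHom.comp_apply, hf, map_prj, hx, mul_zero, sub_zero]

/-- an element of the exterior algebra killed by all contractions is a scalar -/
theorem ext_scalar [FiniteDimensional F V] (x : ExteriorAlgebra F V) (hx : ∀ d : Module.Dual F V, contractLeft d x = 0) :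
    ∃ c : F, x = algebraMap F _ c :=
  ext_scalar_aux x hx _ LinearMap.id rfl (by rw [ExteriorAlgebra.map_id]; rfl)

end ext

section cliff

variable {F V : Type*} [Field F] [AddCommGroup V] [Module F V] {Q : QuadraticForm F V}

/-- an element of the Clifford algebra killed by all contractions is a scalar -/
theorem cliff_scalar [FiniteDimensional F V] (h2 : (2 : F) ≠ 0) (x : CliffordAlgebra Q)
    (hx : ∀ d : Module.Dual F V, contractLeft d x = 0) : ∃ c : F, x = algebraMap F _ c := by
  have : Invertible (2 : F) := invertibleOfNonzero h2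
  have h := changeForm.associated_neg_proof (Q := Q)
  obtain ⟨c, hc⟩ := ext_scalar (changeForm h x) (fun d => by rw [← changeForm_contractLeft, hx, map_zero])
  exact ⟨c, (changeFormEquiv h).injective (hc.trans (changeForm_algebraMap h c).symm)⟩

/-- `v x - x' v = v ⌋ x` -/
theorem comm_eq (v : V) (x : CliffordAlgebra Q) :
    ι Q v * x - involute x * ι Q v = contractLeft (polarBilin Q v) x := by
  induction x using CliffordAlgebra.left_induction with
  | algebraMap r =>
    rw [contractLeft_algebraMap, AlgHom.commutes, ← Algebra.commutes, sub_self]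
  | add x y hx hy =>
    rw [map_add, map_add, ← hx, ← hy, mul_add, add_mul]
    abel
  | ι_mul x m hx =>
    rw [contractLeft_ι_mul, ← hx, map_mul, involute_ι, neg_mul, neg_mul, sub_neg_eq_add, mul_sub, ← mul_assoc,
      show polarBilin Q v m = polar Q v m from rfl]
    have h1 : ι Q v * ι Q m = polar Q v m • (1 : CliffordAlgebra Q) - ι Q m * ι Q v := by
      rw [← ι_anti]
      abel
    rw [h1, sub_mul, smul_mul_assoc, one_mul]
    simp only [mul_assoc]
    abel

/-- elements commuting with all vectors -/
theorem even_central [FiniteDimensional F V] (h2 : (2 : F) ≠ 0) (hQ : Nondeg Q) (x : CliffordAlgebra Q)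
    (he : involute x = x) (hx : ∀ v, ι Q v * x = x * ι Q v) : ∃ c : F, x = algebraMap F _ c := by
  apply cliff_scalar h2
  intro d
  have hinj : Function.Injective (polarBilin Q : V → Module.Dual F V) := by
    intro u v huv
    rw [← sub_eq_zero]
    apply hQ
    intro y
    have := LinearMap.congr_fun huv y
    change polar Q u y = polar Q v y at this
    rw [polar_sub_left, this, sub_self]
  obtain ⟨v, rfl⟩ := (LinearMap.injective_iff_surjective_of_finrank_eq_finrank
    (f := (polarBilin Q : V →ₗ[F] Module.Dual F V)) (Subspace.dual_finrank_eq).symm).1 hinj d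
  rw [← comm_eq, he, hx, sub_self]

/-- elements of `Gam Q` are even of norm one -/
theorem gam_norm {x : Am Q} (hx : x ∈ Gam Q) : involute (x.1 : CliffordAlgebra Q) = x.1 ∧
    reverse (x.1 : CliffordAlgebra Q) * x.1 = 1 := by
  rw [Gam] at hx
  induction hx using Subgroup.closure_induction with
  | mem x hx =>
    obtain ⟨u, v, hu, h, rfl⟩ := hx
    constructor
    · change involute ((Q u)⁻¹ • (ι Q u * ι Q v)) = (Q u)⁻¹ • (ι Q u * ι Q v)
      rw [map_smul, map_mul, involute_ι, involute_ι, neg_mul_neg]
    · change reverse ((Q u)⁻¹ • (ι Q u * ι Q v)) * ((Q u)⁻¹ • (ι Q u * ι Q v)) = 1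
      rw [map_smul, reverse.map_mul, reverse_ι, reverse_ι]
      exact (uu u v hu h).inv_mul
  | one =>
    constructor
    · change involute (1 : CliffordAlgebra Q) = 1
      rw [map_one]
    · change reverse (1 : CliffordAlgebra Q) * 1 = 1
      rw [reverse.map_one, mul_one]
  | mul x y _ _ hx hy =>
    constructor
    · change involute ((x.1 : CliffordAlgebra Q) * (y.1 : CliffordAlgebra Q)) =
        (x.1 : CliffordAlgebra Q) * (y.1 : CliffordAlgebra Q)
      rw [map_mul, hx.1, hy.1]
    · change reverse ((x.1 : CliffordAlgebra Q) * (y.1 : CliffordAlgebra Q)) *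
        ((x.1 : CliffordAlgebra Q) * (y.1 : CliffordAlgebra Q)) = 1
      rw [reverse.map_mul, mul_assoc, ← mul_assoc (reverse (x.1 : CliffordAlgebra Q)), hx.2, one_mul, hy.2]
  | inv x _ hx =>
    have h1 : reverse (x.1 : CliffordAlgebra Q) = ((x.1⁻¹ : (CliffordAlgebra Q)ˣ) : CliffordAlgebra Q) := by
      rw [← Units.mul_inv_eq_one, inv_inv]
      exact hx.2
    constructor
    · change involute ((x.1⁻¹ : (CliffordAlgebra Q)ˣ) : CliffordAlgebra Q) = _
      rw [← h1, ← reverse_involute, hx.1]
      exact h1
    · change reverse ((x.1⁻¹ : (CliffordAlgebra Q)ˣ) : CliffordAlgebra Q) * _ = 1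
      rw [← h1, reverse_reverse]
      change (x.1 : CliffordAlgebra Q) * ((x.1⁻¹ : (CliffordAlgebra Q)ˣ) : CliffordAlgebra Q) = 1
      rw [Units.mul_inv]

/-- **the kernel** -/
theorem ker_eq [FiniteDimensional F V] (h2 : (2 : F) ≠ 0) (hQ : Nondeg Q) {x : Am Q} (hx : x ∈ Gam Q)
    (h : x.2 = 1) : x = 1 ∨ x = mm := by
  obtain ⟨he, hn⟩ := gam_norm hx
  obtain ⟨c, hc⟩ := even_central h2 hQ (x.1 : CliffordAlgebra Q) he (fun v => (Cov.comm (Gam_le_Cov hx) h _).symm)
  have h3 : c * c = 1 := by
    apply smul_one_inj (Q := Q) h2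
    rw [hc, reverse.commutes, ← map_mul, Algebra.algebraMap_eq_smul_one] at hn
    rw [hn, one_smul]
  have h4 : (c - 1) * (c + 1) = 0 := by linear_combination h3
  rcases mul_eq_zero.1 h4 with h5 | h5
  · left
    apply Cov.ext h2 hQ (Gam_le_Cov hx) (one_mem _)
    rw [hc, sub_eq_zero.1 h5, map_one]
    rfl
  · right
    apply Cov.ext h2 hQ (Gam_le_Cov hx) mm_mem_Cov
    rw [hc, eq_neg_of_add_eq_zero_left h5, map_neg, map_one]
    rfl

end cliff

end Cfsg.Agent.H383.QS
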