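import Cfsg.Agent.H383.QS.Ker

/-!
# S2491, S2492: commutators in the spin group (helper383)

* `TStar Q` : every element of `Ω(Q)` is a commutator `[x, k]`, `x` with eigenvectors `u` (for `1`) and `w` (for `-1`),
  `Q u = Q w ≠ 0`;
* `allC_LL` : then every element of the spin group `LL Q` is a commutator.
-/

set_option autoImplicit false

namespace Cfsg.Agent.H383.QS

open QuadraticMap CliffordAlgebra Module
open Cfsg.Agent.LieClassical.OrthCore Cfsg.Agent.LieClassical.OrthTrans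
open Cfsg.Agent.H63.Spin

variable {F V : Type*} [Field F] [AddCommGroup V] [Module F V]

/-- every element of `Ω(Q)` is a commutator `[x, k]` with an `x` having eigenvectors for `1` and `-1` of the same norm -/
def TStar (Q : QuadraticForm F V) : Prop :=
  ∀ g ∈ E Q, ∃ x ∈ E Q, ∃ k ∈ E Q, g = x * k * x⁻¹ * k⁻¹ ∧
    ∃ u w : V, x u = u ∧ x w = -w ∧ Q u = Q w ∧ Q u ≠ 0

variable {Q : QuadraticForm F V}

theorem pp_neg (h2 : (2 : F) ≠ 0) (hQ : Nondeg Q) {u w : V} (hu : Q u ≠ 0) (h : Q u = Q w) (h' : Q u = Q (-w)) :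
    pp u (-w) hu h' = mm * pp u w hu h := by
  apply Cov.ext h2 hQ (pp_mem_Cov _ _) (mul_mem mm_mem_Cov (pp_mem_Cov _ _))
  change (Q u)⁻¹ • (ι Q u * ι Q (-w)) = (-1 : CliffordAlgebra Q) * ((Q u)⁻¹ • (ι Q u * ι Q w))
  rw [map_neg, mul_neg, smul_neg, neg_one_mul]

/-- **the lift to the spin group** -/
theorem allC_LL [FiniteDimensional F V] (hG : Good Q) (h2 : (2 : F) ≠ 0) (hT : TStar Q) (y : LL Q) :
    ∃ a b : LL Q, a * b * a⁻¹ * b⁻¹ = y := by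
  obtain ⟨x, hx, k, hk, hg, u, w, xu, xw, huw, hu⟩ := hT (prL hG y).1 (prL hG y).2
  obtain ⟨X, hX⟩ := prL_surjective hG h2 ⟨x, hx⟩
  obtain ⟨K, hK⟩ := prL_surjective hG h2 ⟨k, hk⟩
  have hX2 : X.1.1.2 = x := congrArg Subtype.val hX
  have hK2 : K.1.1.2 = k := congrArg Subtype.val hK
  -- `[X, K] = y` or `[X, K] = -y`
  have h1 : ((X * K * X⁻¹ * K⁻¹ * y⁻¹ : LL Q).1 : Am Q).2 = 1 := by
    change X.1.1.2 * K.1.1.2 * X.1.1.2⁻¹ * K.1.1.2⁻¹ * y.1.1.2⁻¹ = 1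
    have h3 : (y.1.1.2 : V ≃ₗ[F] V) = x * k * x⁻¹ * k⁻¹ := hg
    rw [hX2, hK2, h3, mul_inv_cancel]
  rcases ker_eq h2 hG.nondeg (X * K * X⁻¹ * K⁻¹ * y⁻¹ : LL Q).1.2 h1 with h3 | h3
  · refine ⟨X, K, ?_⟩
    have h4 : X * K * X⁻¹ * K⁻¹ * y⁻¹ = 1 := Subtype.ext (Subtype.ext h3)
    exact mul_inv_eq_one.1 h4
  · -- the element `P = pp u w`
    set P : Gam Q := ⟨pp u w hu huw, pp_mem_Gam hu huw⟩ with hP
    obtain ⟨l, hl⟩ := prL_surjective hG h2 (pr hG P)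
    have hz : l.1 * P⁻¹ ∈ Subgroup.center (Gam Q) := by
      apply pr_ker hG
      rw [MonoidHom.mem_ker, map_mul, map_inv]
      change prL hG l * (pr hG P)⁻¹ = 1
      rw [hl, mul_inv_cancel]
    have hxO : x ∈ O Q := E_le_O hx
    have h4 : (X.1.1 : Am Q) * pp u w hu huw * (X.1.1 : Am Q)⁻¹ = mm * pp u w hu huw := by
      rw [← pp_neg h2 hG.nondeg hu huw (by rw [QuadraticMap.map_neg, huw])]
      exact conj_pp (Gam_le_Cov X.1.2) (by rw [hX2]; exact hxO) hu huw (by rw [hX2, xu]) (by rw [hX2, xw]) hu _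
    -- `P X P⁻¹ = - X`
    have h5 : (pp u w hu huw : Am Q) * X.1.1 * (pp u w hu huw)⁻¹ = mm * X.1.1 := by
      rw [mul_inv_eq_iff_eq_mul] at h4 ⊢
      have h6 : (X.1.1 : Am Q) * pp u w hu huw = mm * (pp u w hu huw * X.1.1) := by rw [h4, mul_assoc]
      rw [mul_assoc, h6, ← mul_assoc, mm_sq, one_mul]
    have h6 : (l.1.1 : Am Q) * X.1.1 * (l.1.1 : Am Q)⁻¹ = mm * X.1.1 := by
      have h7 := Subgroup.mem_center_iff.1 hz
      have h8 : (l.1 : Gam Q) = (l.1 * P⁻¹) * P := by rw [inv_mul_cancel_right]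
      have h9 : (l.1 : Gam Q) * X.1 * (l.1)⁻¹ = P * X.1 * P⁻¹ := by
        rw [h8]
        generalize l.1 * P⁻¹ = z at h7
        have h10 : z * P * X.1 * (z * P)⁻¹ = z * (P * X.1 * P⁻¹) * z⁻¹ := by group
        rw [h10, ← h7, mul_inv_cancel_right]
      have h10 := congrArg (fun t : Gam Q => (t : Am Q)) h9
      exact h10.trans h5
    refine ⟨X, K * l, ?_⟩
    apply Subtype.ext
    apply Subtype.ext
    change (X.1.1 : Am Q) * (K.1.1 * l.1.1) * X.1.1⁻¹ * (K.1.1 * l.1.1)⁻¹ = y.1.1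
    have h11 : (X.1.1 : Am Q) * (K.1.1 * l.1.1) * X.1.1⁻¹ * (K.1.1 * l.1.1)⁻¹ =
        X.1.1 * K.1.1 * (l.1.1 * X.1.1 * l.1.1⁻¹)⁻¹ * K.1.1⁻¹ := by group
    have h12 : (X.1.1 : Am Q) * K.1.1 * X.1.1⁻¹ * K.1.1⁻¹ * y.1.1⁻¹ = mm := h3
    have h13 : (mm : Am Q)⁻¹ = mm := inv_eq_of_mul_eq_one_left mm_sq
    have h14 : (X.1.1 : Am Q) * K.1.1 * X.1.1⁻¹ * K.1.1⁻¹ = mm * y.1.1 := by
      rw [mul_inv_eq_iff_eq_mul] at h12
      exact h12
    rw [h11, h6, mul_inv_rev, h13]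
    have h15 : (X.1.1 : Am Q) * K.1.1 * (X.1.1⁻¹ * mm) * K.1.1⁻¹ = mm * (X.1.1 * K.1.1 * X.1.1⁻¹ * K.1.1⁻¹) := by
      rw [← mul_assoc, ← mm_comm]
      simp only [mul_assoc]
    rw [h15, h14, ← mul_assoc, mm_sq, one_mul]

end Cfsg.Agent.H383.QS
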