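import Cfsg.Agent.H383.QS.Lift
import Cfsg.Agent.H397.QS.TStarOdd
import Cfsg.Agent.H6.QO.Frame
import Cfsg.Agent.S2094
import Cfsg.Agent.S2096
import Cfsg.Agent.S2097
import Cfsg.Agent.S2099

/-!
# S2491, S2492: the rows `PΩ(q)`, `q` odd (helper383)

* `row_of_le` : a perfect central extension whose kernel has at least the order of the multiplier;
* `row_odd` : `PΩ_{2m+1}(q)`, `m ≥ 3`, not `(3, 3)`;
* `row_plus`, `row_minus` : from `TStar` of the form.
-/

set_option autoImplicit false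

namespace Cfsg.Agent.H383.QS

open QuadraticMap
open Cfsg.Agent.LieClassical Cfsg.Agent.LieClassical.OrthCore Cfsg.Agent.LieClassical.OrthTrans
open Cfsg.Agent.LieClassical.OrthSimple Cfsg.Agent.LieClassical.OrthFinite Cfsg.Agent.LieClassical.OrthForms
open Cfsg.Agent.TitsThree Cfsg.Agent.TitsThree.Siegel Cfsg.Agent.TitsThree.SiegelGen
  Cfsg.Agent.TitsThree.WittFrame Cfsg.Agent.TitsThree.WittWeyl Cfsg.Agent.TitsThree.WBridge
  Cfsg.Agent.TitsThree.KSideO Cfsg.Agent.TitsThree.StdData
open Cfsg.Agent.Nodes.WittInst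
open Cfsg.Agent.H51.Mult Cfsg.Agent.H63.Spin Cfsg.Agent.H63.Asm
open Cfsg.Agent.H6.QO Cfsg.Agent.H777.Ore

universe u v w x

/-- a perfect central extension whose kernel has at least the order of the multiplier -/
theorem row_of_le {K : Type v} [Group K] {A : Type w} [CommGroup A] (hA : Cfsg.HasSchurMultiplier K A)
    {Γ : Type u} [Group Γ] [Finite Γ] {σ : Γ →* K} (hσ : PCE σ) (hle : Nat.card A ≤ Nat.card σ.ker) (h : AllC Γ) :
    RowA K := by
  have hfA : Finite A := Cfsg.Agent.H487.finite_multiplier hA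
  have h1 := H990.TC.card_ker_dvd hA hσ
  exact RowA.of_univ hA hσ (le_antisymm (Nat.le_of_dvd Nat.card_pos h1) hle) h

section spin

variable {κ : Type} [Fintype κ] [DecidableEq κ] {F : Type u} [Field F] [Finite F] {Q : QuadraticForm F (κ → F)}
  (hG : Good Q) (h2 : (2 : F) ≠ 0)

include h2 in
theorem row_spin {A : Type w} [CommGroup A] (hA : Cfsg.HasSchurMultiplier (Cfsg.POmega F ⇑Q) A) (hT : TStar Q)
    (hle : Nat.card A ≤ Nat.card (spi hG).ker) : RowA (Cfsg.POmega F ⇑Q) := by
  have := finite_LL hG h2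
  refine row_of_le hA (pce hG h2) hle fun y => ?_
  obtain ⟨a, b, e⟩ := allC_LL hG h2 hT y
  exact ⟨a, b, e.symm⟩

include h2 in
theorem row_spin_cyc {n : ℕ} (hA : Cfsg.HasCyclicSchurMultiplier (Cfsg.POmega F ⇑Q) n) (hT : TStar Q)
    (hn : n ∣ Nat.card (spi hG).ker) : RowA (Cfsg.POmega F ⇑Q) := by
  have := finite_LL hG h2
  refine row_spin hG h2 hA hT ?_
  have h1 : Nat.card (Multiplicative (ZMod n)) = n := Nat.card_zmod n
  rw [h1]
  exact Nat.le_of_dvd Nat.card_pos hn

end spin

theorem odd_card {F : Type u} [Field F] [Fintype F] (h2 : (2 : F) ≠ 0) : Odd (Fintype.card F) := by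
  rw [Nat.odd_iff]
  exact FiniteField.odd_card_of_char_ne_two (F := F) (by
    intro h
    have := ringChar.charP F
    rw [h] at this
    exact h2 (by exact_mod_cast CharP.cast_eq_zero F 2))

/-- **`PΩ_{2m+1}(q)`** -/
theorem row_odd {F : Type u} [Field F] [Fintype F] (h2 : (2 : F) ≠ 0) {m : ℕ} (hm : 3 ≤ m)
    (hexc : ¬ (m = 3 ∧ Fintype.card F = 3)) : RowA (Cfsg.POmega F (Cfsg.quadFormOdd m F)) := by
  have hG : Good (oddForm m F) := H48.OMult.good_odd h2 (by omega)
  have hA := Cfsg.Agent.S2094.result (F := F) rfl (odd_card h2) m hm hexc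
  have hT : TStar (oddForm m F) := fun g hg =>
    H397.QS.TStar.tstar_odd hG h2 hm (by simp [Fintype.card_sum]; ring) g hg
  have h3 := row_spin_cyc hG h2 (n := 2) (by rw [coe_oddForm]; exact hA) hT (two_dvd hG h2 (wodd m F) hm)
  rwa [coe_oddForm] at h3

/-- **`PΩ⁺_{2l}(q)`** -/
theorem row_plus {F : Type u} [Field F] [Fintype F] (h2 : (2 : F) ≠ 0) {l : ℕ} (hl : 4 ≤ l)
    (hT : TStar (plusForm l F)) : RowA (Cfsg.POmega F (Cfsg.quadFormPlus l F)) := by
  have hG : Good (plusForm l F) := H63.Plus.good_plus F (by omega)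
  rw [← coe_plusForm]
  rcases Nat.even_or_odd l with heven | hodd
  · have hA := H63.Plus.even_rank h2 hl heven
    rw [← coe_plusForm] at hA
    refine row_spin hG h2 hA hT ?_
    obtain ⟨k, hk⟩ := heven
    have h4 := four_le hG h2 (wplus l F) (by omega)
      (exists_z_even (wplus l F) hG h2 (by omega) (k := k) (by omega) H63.Plus.V0_plus)
    have h5 : Nat.card (Multiplicative (ZMod 2 × ZMod 2)) = 4 := by
      change Nat.card (ZMod 2 × ZMod 2) = 4
      rw [Nat.card_prod, Nat.card_zmod]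
    rw [h5]
    exact h4
  · have hA := H63.Plus.odd_rank h2 (l := l) (by obtain ⟨k, hk⟩ := hodd; omega) hodd
    rw [← coe_plusForm] at hA
    refine row_spin_cyc hG h2 hA hT ?_
    have h3 := H63.Plus.even_pred (F := F) h2
    by_cases h4 : 4 ∣ Nat.card F - 1
    · rw [Nat.gcd_eq_left h4]
      obtain ⟨c, hc⟩ : IsSquare (-1 : F) := by
        rw [FiniteField.isSquare_neg_one_iff, ← Nat.card_eq_fintype_card]
        have : 0 < Nat.card F := Nat.card_pos
        omega
      obtain ⟨k, hk⟩ := hodd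
      exact four_dvd hG h2 (exists_z_odd (wplus l F) hG h2 (by omega) hk H63.Plus.V0_plus hc.symm)
    · have h5 : Nat.gcd 4 (Nat.card F - 1) ∣ 2 := by
        have h6 : Nat.gcd 4 (Nat.card F - 1) ∣ 2 ^ 2 := Nat.gcd_dvd_left _ _
        obtain ⟨j, hj, hj'⟩ := (Nat.dvd_prime_pow Nat.prime_two).1 h6
        rcases (by omega : j = 0 ∨ j = 1 ∨ j = 2) with rfl | rfl | rfl
        · rw [hj']; norm_num
        · rw [hj']; norm_num
        · exfalso
          apply h4
          have := Nat.gcd_dvd_right 4 (Nat.card F - 1)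
          rw [hj'] at this
          exact this
      exact h5.trans (two_dvd hG h2 (wplus l F) (by omega))

open Classical in
/-- **`PΩ⁻_{2m+2}(q)`** -/
theorem row_minus {F : Type} [Field F] [Fintype F] (h2 : (2 : F) ≠ 0) {m : ℕ} (hm : 3 ≤ m) (a b : F)
    (hab : ∀ z₁ z₂ : F, z₁ ^ 2 + a * z₁ * z₂ + b * z₂ ^ 2 = 0 → z₁ = 0 ∧ z₂ = 0)
    (hT : TStar (minusForm m F a b)) : RowA (Cfsg.POmega F (Cfsg.quadFormMinus m F a b)) := by
  have hG := H63.Minus.good m a b hab (by omega)
  have hA := H63.Minus.odd_char m a b hab h2 hm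
  rw [← coe_minusForm] at hA ⊢
  refine row_spin_cyc hG h2 hA hT ?_
  split_ifs with h
  · obtain ⟨hme, hsq⟩ := h
    obtain ⟨k, hk⟩ := hme
    obtain ⟨s, hs0, hs⟩ := H63.Minus.exists_pair a b hab h2 hsq
    have hQ : ∀ x y : F, minusForm m F a b (Sum.elim (fun _ => 0) ![x, y]) = x ^ 2 + a * x * y + b * y ^ 2 := by
      intro x y
      rw [coe_minusForm, quadFormMinus_apply]
      simp
    have hP : ∀ x y z w : F, polar (minusForm m F a b) (Sum.elim (fun _ => 0) ![x, y])
        (Sum.elim (fun _ => 0) ![z, w]) = 2 * x * z + a * (x * w + y * z) + 2 * b * y * w := by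
      intro x y z w
      rw [polar_minusForm]
      simp
    refine four_dvd hG h2 (exists_z_minus (wminus m F a b hab) hG h2 hm (k := k) (by omega)
      (u := Sum.elim (fun _ => 0) ![1, 0]) (v := Sum.elim (fun _ => 0) ![-a / s, 2 / s]) ?_ ?_ ?_ ?_ ?_ ?_)
    · intro j; rfl
    · intro j; rfl
    · rw [hQ]; simp
    · rw [hQ, hQ]
      field_simp
      linear_combination -hs
    · rw [hP]
      field_simp
      ring
    · intro w hw
      have hw' : ∀ j, w (Sum.inl j) = 0 := hw
      refine ⟨w (Sum.inr 0) + a * w (Sum.inr 1) / 2, s * w (Sum.inr 1) / 2, ?_⟩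
      funext j
      rcases j with j | j
      · simp [hw']
      · fin_cases j
        · simp
          field_simp
          ring
        · simp
          field_simp
  · exact two_dvd hG h2 (wminus m F a b hab) hm

end Cfsg.Agent.H383.QS
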